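import Cfsg.Agent.H623.GU.TypGL
import Cfsg.Agent.H623.GU.Tower
import Cfsg.Agent.H583.GLn.Cusp
import Cfsg.Agent.H521.GU.Compl
import Cfsg.Agent.H421.GU.Orb

/-!
# S4537: the cuspidal characters of `GL_k(F)` in the realization given by the types (helper505)

`Q = |F|`, `typeGL` the class data of `GL_n(F)`.
* `evR_X` : the value of the standard model at a variable; `Pop_vac` : its value at a type;
* `lba_mp` : the sum over an orbit is the value of `lba` at the minimal polynomial;
* `Pop_vac_tyG` : `Pop k c vac` at the type of `T` is the Möbius inversion of `lba`;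
* `omT_X`, `omT_rv` : `omT` and `Om` coincide at the cuspidal variables;
* `exists_cusp_omT` : the cuspidal irreducible characters.
-/

set_option autoImplicit false
set_option linter.unusedSectionVars false

open Module Polynomial Cfsg
open scoped MatrixGroups

namespace Cfsg.Agent.H505.GU

open Cfsg.Agent.H615.GU Cfsg.Agent.H794.GUT Cfsg.Agent.H623.GU Cfsg.Agent.H577.GLB.Std
open Cfsg.Agent.H614.GLn (lba lba_add Ctx Rc Rf)
open Cfsg.Agent.H139.Cusp (kap kap_formula kap_eq_zero_or aeval_pow_of_charpoly)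

universe u v w

section vac

variable {I : Type*}

theorem lft_vac (o : I) (A : Module.End ℂ (Col → ℂ)) (lam : Ty I) [Decidable (∀ o', o' ≠ o → lam o' = 0)] :
    lft o A (vac : Ty I → ℂ) lam = if ∀ o', o' ≠ o → lam o' = 0 then A vacl (lam o) else 0 := by
  classical
  have h0 : lft o A (vac : Ty I → ℂ) lam = A (fun c => (vac : Ty I → ℂ) (lam.update o c)) (lam o) := rfl
  rw [h0]
  split_ifs with h
  · have h1 : ∀ c, lam.update o c = 0 ↔ c = 0 := by
      intro c
      constructor
      · intro h2
        have h3 := DFunLike.congr_fun h2 o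
        simpa using h3
      · rintro rfl
        ext1 o'
        by_cases ho : o' = o
        · subst ho
          simp
        · simp [Finsupp.update, Function.update_of_ne ho, h o' ho]
    have h2 : (fun c => (vac : Ty I → ℂ) (lam.update o c)) = vacl := by
      funext c
      rw [vac, vacl]
      simp only [h1]
    rw [h2]
  · push Not at h
    obtain ⟨o', ho', hne⟩ := h
    have h1 : (fun c => (vac : Ty I → ℂ) (lam.update o c)) = 0 := by
      funext c
      rw [vac, if_neg, Pi.zero_apply]
      intro h2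
      have h3 := DFunLike.congr_fun h2 o'
      rw [Finsupp.coe_update, Function.update_of_ne ho'] at h3
      exact hne h3
    rw [h1, map_zero, Pi.zero_apply]

end vac

section std

variable {K : Type v} [Field K] (θ : K →*₀ ℂ) (Q : ℤ) (M : ℕ)

theorem evR_X (x : Var M) : H615.GU.evR θ Q M (MvPolynomial.X x) = Pop θ Q M x.1 x.2 vac := by
  classical
  have h := evR_monomial θ Q M (Finsupp.single x 1)
  have h1 : (MvPolynomial.monomial (Finsupp.single x 1) (1 : ℂ)) = MvPolynomial.X x := rfl
  rw [h1] at h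
  rw [h, Finsupp.support_single_ne_zero _ one_ne_zero, Finset.toList_singleton, List.map_singleton,
    List.prod_singleton, Finsupp.single_eq_same, pow_one]

variable {θ Q M}

/-- the value of the cuspidal function at a type concentrated at one orbit -/
theorem Pop_vac_single [Finite K] {k : ℕ} (hk : 0 < k) (c : ZMod M) {lam : Ty (Orb K Q)} {o : Orb K Q}
    (ho : ∀ o', o' ≠ o → lam o' = 0) (hs : dOrb K Q o * (lam o).size = k) :
    Pop θ Q M k c vac lam =
      thO θ Q M k c o * ∏ i ∈ Finset.range (lam o 0 - 1), (1 - ((Q : ℂ) ^ dOrb K Q o) ^ (i + 1)) := by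
  classical
  have hd : 0 < dOrb K Q o := by
    rcases Nat.eq_zero_or_pos (dOrb K Q o) with h | h
    · rw [h, zero_mul] at hs
      omega
    · exact h
  have hl : 0 < (lam o).size := by
    rcases Nat.eq_zero_or_pos (lam o).size with h | h
    · rw [h, mul_zero] at hs
      omega
    · exact h
  have hfin : Fintype (Orb K Q) := Fintype.ofFinite _
  rw [Pop, finsum_eq_sum_of_fintype, LinearMap.sum_apply, Finset.sum_apply, Finset.sum_eq_single o]
  · rw [if_pos ⟨hk, Dvd.intro _ hs⟩, LinearMap.smul_apply, Pi.smul_apply, smul_eq_mul, lft_vac, if_pos ho]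
    congr 1
    have h1 : k / dOrb K Q o = (lam o).size := Nat.div_eq_of_eq_mul_right hd hs.symm
    rw [h1, H521.GU.Pl_vacl _ hl, if_pos rfl]
  · intro o' _ hne
    split_ifs with h
    · rw [LinearMap.smul_apply, Pi.smul_apply, lft_vac, if_neg, smul_zero]
      intro h1
      have h2 := h1 o hne.symm
      rw [h2, Col.size_zero] at hl
      omega
    · rfl
  · intro h
    exact absurd (Finset.mem_univ _) h

/-- the value of the cuspidal function at a type with at least two orbits -/
theorem Pop_vac_zero [Finite K] {k : ℕ} (c : ZMod M) {lam : Ty (Orb K Q)}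
    (ho : ∀ o : Orb K Q, ¬ ∀ o', o' ≠ o → lam o' = 0) : Pop θ Q M k c vac lam = 0 := by
  classical
  have hfin : Fintype (Orb K Q) := Fintype.ofFinite _
  rw [Pop, finsum_eq_sum_of_fintype, LinearMap.sum_apply, Finset.sum_apply]
  refine Finset.sum_eq_zero fun o _ => ?_
  split_ifs with h
  · rw [LinearMap.smul_apply, Pi.smul_apply, lft_vac, if_neg (ho o), smul_zero]
  · rfl

end std

section gl

variable {F : Type u} [Field F] [Fintype F] {K : Type v} [Field K] [Finite K] [Algebra F K] {θ : K →*₀ ℂ} {M : ℕ}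

theorem expoZ_nat (q : ℕ) (hq : 0 < q) (k : ℕ) (c : ZMod M) : expoZ (q : ℤ) M k c = ((H614.GLn.expo q M k c : ℕ) : ℤ) := by
  rw [expoZ, H614.GLn.expo, Int.natCast_div, Nat.cast_mul, Nat.cast_sub (Nat.one_le_pow _ _ hq)]
  push_cast
  rfl

theorem isUnit_Q [NeZero M] (hM : Nat.card Kˣ = M) : IsUnit (((Fintype.card F : ℤ)) : ZMod M) := by
  have h1 : (Fintype.card F).Coprime M := by
    have h2 : Nat.card K = Fintype.card F ^ finrank F K := by
      rw [Module.natCard_eq_pow_finrank (K := F), Nat.card_eq_fintype_card]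
    have h3 : M = Fintype.card F ^ finrank F K - 1 := by rw [← hM, Nat.card_units, h2]
    have h4 : 0 < finrank F K := finrank_pos
    have h5 : 1 ≤ Fintype.card F ^ finrank F K := Nat.one_le_pow _ _ Fintype.card_pos
    have h6 : (Fintype.card F ^ finrank F K).Coprime M := by
      have : Fintype.card F ^ finrank F K = M + 1 := by omega
      rw [this]
      simp
    exact Nat.Coprime.coprime_dvd_left (dvd_pow_self _ h4.ne') h6
  rw [Int.cast_natCast]
  exact (ZMod.isUnit_iff_coprime _ _).2 h1

/-- the sum over an orbit is the value of `lba` at the minimal polynomial -/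
theorem thO_lba [NeZero M] (hM : Nat.card Kˣ = M) (k : ℕ) (c : ZMod M) (x : Kˣ) :
    thO θ (Fintype.card F : ℤ) M k c (omk F x) = lba (F := F) θ (H614.GLn.expo (Nat.card F) M k c) (mp F x) := by
  have h1 := H421.GU.thO_mk (θ := θ) hM (isUnit_Q (F := F) hM) k c x
  change thO θ (Fintype.card F : ℤ) M k c (omk F x) = _ at h1
  rw [h1, mp, Cfsg.Agent.H623.GLn.lba_minpoly, if_neg x.ne_zero]
  change ∑ i ∈ Finset.range (dOrb K (Fintype.card F : ℤ) (omk F x)), _ = _
  rw [dOrb_mk, mp]
  refine Finset.sum_congr rfl fun i _ => ?_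
  rw [expoZ_nat _ Fintype.card_pos, Nat.card_eq_fintype_card, zpow_natCast, ← Nat.cast_pow, zpow_natCast,
    ← map_pow, ← map_pow]
  congr 1
  rw [← pow_mul, ← pow_mul, mul_comm, Units.val_pow_eq_pow_val]

/-! ### the type and the characteristic polynomial -/

variable {V : Type w} [AddCommGroup V] [Module F V] [FiniteDimensional F V]

theorem col_eq_zero_iff [Finite V] (T : End F V) {φ : F[X]} (hφ : φ.Monic) (hirr : Irreducible φ) :
    col T φ = 0 ↔ ¬ φ ∣ T.charpoly := by
  rw [kd_zero_iff T hφ hirr, kd, pow_one, Submodule.finrank_eq_zero]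
  constructor
  · intro h hd
    exact Cfsg.Agent.H139.Cusp.ker_aeval_ne_bot hirr hd h
  · intro h
    have h1 : IsCoprime φ T.charpoly := (hirr.coprime_iff_not_dvd).2 h
    obtain ⟨a, b, hab⟩ := h1
    rw [LinearMap.ker_eq_bot']
    intro x hx
    have h2 := congrArg (fun P : F[X] => aeval T P x) hab
    simp only [map_add, map_mul, map_one, LinearMap.add_apply, Module.End.mul_apply, Module.End.one_apply, hx,
      LinearMap.aeval_self_charpoly, map_zero, LinearMap.zero_apply, add_zero] at h2
    exact h2.symm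

theorem charpoly_eq_pow [Finite V] (T : End F V) {f : F[X]}
    (h : ∀ φ : F[X], φ.Monic → Irreducible φ → φ ≠ f → col T φ = 0) :
    ∃ m : ℕ, T.charpoly = f ^ m := by
  classical
  have hm := LinearMap.charpoly_monic T
  have h1 : ∀ g ∈ UniqueFactorizationMonoid.normalizedFactors T.charpoly, g = f := by
    intro g hg
    have hgi := UniqueFactorizationMonoid.irreducible_of_normalized_factor g hg
    have hgd := UniqueFactorizationMonoid.dvd_of_mem_normalizedFactors hg
    have hgm : g.Monic := by
      have h2 := UniqueFactorizationMonoid.normalize_normalized_factor g hg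
      rw [← h2]
      exact Polynomial.monic_normalize hgi.ne_zero
    by_contra hne
    exact (col_eq_zero_iff T hgm hgi).1 (h g hgm hgi hne) hgd
  have h3 : (UniqueFactorizationMonoid.normalizedFactors T.charpoly).prod = T.charpoly := by
    rw [UniqueFactorizationMonoid.prod_normalizedFactors_eq hm.ne_zero, hm.normalize_eq_self]
  refine ⟨Multiset.card (UniqueFactorizationMonoid.normalizedFactors T.charpoly), ?_⟩
  conv_lhs => rw [← h3, Multiset.eq_replicate_of_mem h1, Multiset.prod_replicate]

/-- **the value of the cuspidal function** -/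
theorem Pop_vac_tyG [NeZero M] (hM : Nat.card Kˣ = M) {k : ℕ} (hk : 0 < k) (c : ZMod M) [Finite V]
    {T : End F V} (hT : KSp K T) (hV : finrank F V = k) :
    Pop θ (Fintype.card F : ℤ) M k c vac (tyG K T) = kap (lba (F := F) θ (H614.GLn.expo (Nat.card F) M k c)) T ⊤ := by
  classical
  have : Nontrivial V := Module.nontrivial_of_finrank_pos (R := F) (by omega)
  set B := lba (F := F) θ (H614.GLn.expo (Nat.card F) M k c) with hB
  have hBa : ∀ p q : F[X], p.Monic → q.Monic → B (p * q) = B p + B q := lba_add θ _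
  by_cases hp : ∃ (f : F[X]) (m : ℕ), f.Monic ∧ Irreducible f ∧ 0 < m ∧ T.charpoly = f ^ m
  · obtain ⟨f, m, hf, hirr, hm, hc⟩ := hp
    have hfd : f ∣ T.charpoly := by
      rw [hc]
      exact dvd_pow_self f hm.ne'
    have hfc : col T f ≠ 0 := fun h => (col_eq_zero_iff T hf hirr).1 h hfd
    obtain ⟨x, rfl⟩ : ∃ x : Kˣ, mp F x = f := by
      by_contra hcon
      push Not at hcon
      exact hfc (hT f hf hirr hcon)
    have ho : ∀ o', o' ≠ omk F x → (tyG K T : Ty (Orb K (Fintype.card F : ℤ))) o' = 0 := by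
      intro o' ho'
      obtain ⟨y, rfl⟩ : ∃ y : Kˣ, omk F y = o' := ⟨_, omk_out o'⟩
      rw [tyG_mk, col_eq_zero_iff T (mp_monic y) (mp_irr y), hc]
      intro hd
      have h1 := (mp_irr (F := F) y).prime.dvd_of_dvd_pow hd
      have h2 := Polynomial.eq_of_monic_of_associated (mp_monic y) (mp_monic x)
        ((mp_irr y).associated_of_dvd (mp_irr x) h1)
      exact ho' (omk_eq_iff.2 h2)
    have hlam : (tyG K T : Ty (Orb K (Fintype.card F : ℤ))) =
        Finsupp.single (omk F x) ((tyG K T : Ty (Orb K (Fintype.card F : ℤ))) (omk F x)) := by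
      ext1 o'
      by_cases h : o' = omk F x
      · rw [h, Finsupp.single_eq_same]
      · rw [ho o' h, Finsupp.single_eq_of_ne h]
    have hdeg := tdeg_tyG hT
    rw [hlam, tdeg, Finsupp.sum_single_index (by rw [Col.size_zero, mul_zero]), hV] at hdeg
    rw [Pop_vac_single hk c ho hdeg, thO_lba hM]
    obtain ⟨j, hj⟩ := Cfsg.Agent.H139.Cusp.exists_finrank_ker hirr hfd
    rw [kap_formula B hBa hf hirr (aeval_pow_of_charpoly hc) hj]
    have h0 : (tyG K T : Ty (Orb K (Fintype.card F : ℤ))) (omk F x) 0 = j + 1 := by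
      rw [tyG_mk, col_apply T hf hirr]
      have h1 := kd_eq T hf hirr 1
      rw [Finset.sum_range_one, kd, pow_one, hj] at h1
      exact (Nat.eq_of_mul_eq_mul_left hirr.natDegree_pos h1).symm
    rw [h0, Nat.add_sub_cancel, dOrb_mk]
    congr 1
    refine Finset.prod_congr rfl fun i _ => ?_
    rw [Nat.card_eq_fintype_card, ← pow_mul]
    push_cast
    rfl
  · have h1 := (kap_eq_zero_or (B := B) hBa T).resolve_left hp
    rw [h1]
    refine Pop_vac_zero c fun o ho => hp ?_
    obtain ⟨x, rfl⟩ : ∃ x : Kˣ, omk F x = o := ⟨_, omk_out o⟩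
    obtain ⟨m, h2⟩ := charpoly_eq_pow T (f := mp F x) (fun φ hφ hirr hne => by
      by_cases hx : ∀ y : Kˣ, mp F y ≠ φ
      · exact hT φ hφ hirr hx
      · push Not at hx
        obtain ⟨y, rfl⟩ := hx
        rw [← tyG_mk]
        exact ho _ fun h => hne (omk_eq_iff.1 h))
    refine ⟨mp F x, _, mp_monic x, mp_irr x, ?_, h2⟩
    rcases Nat.eq_zero_or_pos m with h3 | h3
    · exfalso
      rw [h3, pow_zero] at h2
      have h4 := LinearMap.charpoly_natDegree T
      rw [h2, natDegree_one, hV] at h4
      omega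
    · exact h3

end gl

section cusp

open Cfsg.Agent.H577.GLB.Real (Om piA)

variable {F : Type u} [Field F] [Fintype F] {K : Type u} [Field K] [Finite K] [Algebra F K] {θ : K →*₀ ℂ} {M : ℕ}
  [NeZero M] {n : ℕ}

/-- **the two realizations coincide at the variables** -/
theorem omT_X (hM : Nat.card Kˣ = M) (hs : ∀ h : F[X], h.Monic → h.natDegree ≤ n → (h.map (algebraMap F K)).Splits)
    (x : Var M) : omT θ M (typeGL K hs) (MvPolynomial.X x) = Om (F := F) θ M n (MvPolynomial.X x) := by
  obtain ⟨k, c⟩ := x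
  funext g
  rw [omT_apply, evR_X, Om, H577.GLB.Real.piA, MvPolynomial.aeval_X]
  change Pop θ (Fintype.card F : ℤ) M k c vac (tyG K (Matrix.toLin' g.1)) = (Rc θ M k c).fn (Fin n → F) (Matrix.toLin' g.1)
  have hT : KSp K (Matrix.toLin' g.1) := kSp_of_splits hs (by rw [finrank_fin_fun]) (glG_injective g)
  rw [Rc, Rf, Cfsg.Agent.H614.GLn.comp_fn]
  by_cases hn : finrank F (Fin n → F) = k
  · rw [if_pos hn, Cfsg.Agent.H614.GLn.kapF_fn]
    rcases Nat.eq_zero_or_pos k with hk | hk
    · subst hk
      have h1 : Subsingleton (Fin n → F) := by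
        rw [← Module.finrank_zero_iff (R := F), hn]
      have h2 : (⊤ : Submodule F (Fin n → F)) = ⊥ := Subsingleton.elim _ _
      rw [h2, Cfsg.Agent.H139.Cusp.kap_bot _ (lba_add θ _), Pop]
      simp
    · exact Pop_vac_tyG hM hk c hT hn
  · rw [if_neg hn]
    rw [finrank_fin_fun] at hn
    have h1 := H531.GU.evR_supp θ (Fintype.card F : ℤ) M H521.GU.i2s (x := MvPolynomial.X (k, c)) (n := k)
      (by
        rw [MvPolynomial.mem_weightedHomogeneousSubmodule]
        exact MvPolynomial.isWeightedHomogeneous_X _ _ _) (tyG K (Matrix.toLin' g.1)) (by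
        rw [tdeg_tyG hT, finrank_fin_fun]
        exact hn)
    rw [evR_X] at h1
    exact h1

/-- **the two realizations coincide at the cuspidal variables** -/
theorem omT_rv (hM : Nat.card Kˣ = M) (hs : ∀ h : F[X], h.Monic → h.natDegree ≤ n → (h.map (algebraMap F K)).Splits)
    (Q : ℤ) (k : ℕ) (c : ZMod M) :
    omT θ M (typeGL K hs) (rv Q M k c) = Om (F := F) θ M n (rv Q M k c) := by
  rw [rv]
  split_ifs with h
  · exact omT_X hM hs _
  · rw [map_zero]
    funext g
    rw [Om, map_zero]
    rfl

/-- **the cuspidal irreducible characters** (T4 for `GL_k`) -/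
theorem exists_cusp_omT {N : ℕ} (hctx : Ctx F θ N M) {k : ℕ} (hk : 0 < k) (hkN : k ≤ N) (c : ZMod M)
    (hc : perZ (Fintype.card F : ℤ) M c = k)
    (hs : ∀ h : F[X], h.Monic → h.natDegree ≤ k → (h.map (algebraMap F K)).Splits) :
    ∃ χ : IrrCharacter (GL (Fin k) F), H624.Sl.IsCusp (χ : GL (Fin k) F → ℂ) ∧
      ∀ g, (χ : GL (Fin k) F → ℂ) g = (-1) ^ (k - 1) * omT θ M (typeGL K hs) (rv (Fintype.card F : ℤ) M k c) g := by
  rw [← Nat.card_eq_fintype_card] at hc
  obtain ⟨χ, h1, h2⟩ := Cfsg.Agent.H583.GLn.exists_cusp hctx hk hkN c hc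
  refine ⟨χ, h1, fun g => ?_⟩
  rw [h2, omT_rv hctx.card, Nat.card_eq_fintype_card]

end cusp

end Cfsg.Agent.H505.GU
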